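import Cfsg.Prelude.Def_Transfer
import Cfsg.Prelude.Def_Solvable
import Cfsg.Agent.Helper63.N15Defs
import Cfsg.Agent.Helper35.CoprimeAbelian

/-!
# CALL S4415 part B, piece p0b (coprime action: `[K, B, B] = [K, B]`)
-/

set_option autoImplicit false

namespace Cfsg.Agent.Helper62.N15

open Cfsg.Agent.Helper63.N15

open scoped commutatorElement

variable {S : Type*} [Group S] [Finite S] {E : Type*} [AddCommGroup E] [Module (ZMod 3) E]
  [Finite E]

/-- P0b. Coprime action: `[K, B, B] = [K, B]` for `K` normal of order prime to `3 = |B|`;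
`[K, B] ≤ K` and `B` normalizes `[K, B]`. -/
theorem p0b (K B : Subgroup S) (hK : K.Normal) (hK3 : (Nat.card ↥K).Coprime 3)
    (hB : Nat.card ↥B = 3) :
    ⁅⁅K, B⁆, B⁆ = ⁅K, B⁆ ∧ ⁅K, B⁆ ≤ K ∧ ∀ x ∈ B, ∀ r ∈ ⁅K, B⁆, x * r * x⁻¹ ∈ ⁅K, B⁆ := by
  have hBK : B ≤ Subgroup.normalizer (K : Set S) := by
    rw [Subgroup.normalizer_eq_top]
    exact le_top
  have hcop : (Nat.card B).Coprime (Nat.card K) := by
    rw [hB]
    exact hK3.symm
  have hBcyc : IsCyclic B := by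
    haveI : Fact (Nat.Prime 3) := ⟨Nat.prime_three⟩
    exact isCyclic_of_prime_card hB
  have hBsolv : Group.IsSolvable B := by
    haveI := hBcyc
    letI : CommGroup B := IsCyclic.commGroup
    exact Group.isSolvable_of_comm (fun a b => mul_comm a b)
  have h1 : (⁅⁅K, B⁆, B⁆ : Subgroup S) = ⁅K, B⁆ :=
    Cfsg.Agent.Helper35.commutator_commutator_eq_of_coprime hBK hcop (Or.inl hBsolv)
  have h2 : (⁅K, B⁆ : Subgroup S) ≤ K := Cfsg.Agent.Helper35.commutator_le_of_le_normalizer hBK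
  refine ⟨h1, h2, ?_⟩
  intro x hx r hr
  have h3 : ⁅r, x⁆ ∈ (⁅⁅K, B⁆, B⁆ : Subgroup S) := Subgroup.commutator_mem_commutator hr hx
  rw [h1] at h3
  have h4 : x * r * x⁻¹ = (⁅r, x⁆)⁻¹ * r := by
    rw [commutatorElement_def]; group
  rw [h4]
  exact Subgroup.mul_mem _ (Subgroup.inv_mem _ h3) hr

end Cfsg.Agent.Helper62.N15
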