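import Mathlib
import Cfsg.Agent.S1453
import Cfsg.Agent.Helper33.CritSub
import Cfsg.Agent.Helper23.Rank2

/-!
# Automorphisms of narrow `p`-groups (Bender–Glauberman, Theorem 5.3 (a), (b))

Type-level core: for an odd prime `p` and a finite `p`-group `P` of rank at least `3` having an
element `x` such that the elements of order dividing `p` of `C_P(x)` form a subgroup `E` of
order `p ^ 2`, there is a subgroup `K` of `MulAut P` containing all commutators and all
`(p - 1)`-th powers and containing no non-identity element of order prime to `p`.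
-/

set_option autoImplicit false

namespace Cfsg.Agent.Helper62.Narrow

open Subgroup
open scoped commutatorElement

section TypeLevel

variable {P : Type*} [Group P]

/-- The automorphisms acting trivially on the section `M / N`. -/
def secKer (N M : Subgroup P) (hM : ∀ φ : MulAut P, ∀ m ∈ M, φ m ∈ M) : Subgroup (MulAut P) where
  carrier := {θ | ∀ m ∈ M, m⁻¹ * θ m ∈ N}
  one_mem' := by
    intro m _
    simp
  mul_mem' := by
    intro a b ha hb m hm
    have h1 := hb m hm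
    have h2 := ha (b m) (hM b m hm)
    have h3 : m⁻¹ * (a * b) m = (m⁻¹ * b m) * ((b m)⁻¹ * a (b m)) := by
      rw [MulAut.mul_apply]; group
    rw [h3]
    exact N.mul_mem h1 h2
  inv_mem' := by
    intro a ha m hm
    have h1 := ha (a⁻¹ m) (hM a⁻¹ m hm)
    rw [MulAut.apply_inv_self] at h1
    have h3 : m⁻¹ * a⁻¹ m = ((a⁻¹ m)⁻¹ * m)⁻¹ := by group
    rw [h3]
    exact N.inv_mem h1

theorem mem_secKer {N M : Subgroup P} {hM : ∀ φ : MulAut P, ∀ m ∈ M, φ m ∈ M} {θ : MulAut P} :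
    θ ∈ secKer N M hM ↔ ∀ m ∈ M, m⁻¹ * θ m ∈ N := Iff.rfl

/-- A subgroup invariant under all automorphisms is normal. -/
theorem normal_of_inv (C : Subgroup P) (hC : ∀ φ : MulAut P, ∀ h ∈ C, φ h ∈ C) : C.Normal :=
  ⟨fun h hh g => by simpa using hC (MulAut.conj g) h hh⟩

theorem char_inv {C : Subgroup P} (hC : C.Characteristic) (φ : MulAut P) {h : P} (hh : h ∈ C) :
    φ h ∈ C := by
  have h1 : h ∈ C.comap φ.toMonoidHom := by
    rw [hC.fixed φ]
    exact hh
  exact h1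

/-- Counting: a map `M → N` whose fibres lie in cosets of `C`. -/
theorem card_le_of_fiber [Finite P] (M N C : Subgroup P) (g : P → P) (hg : ∀ m ∈ M, g m ∈ N)
    (hfib : ∀ a ∈ M, ∀ b ∈ M, g a = g b → b⁻¹ * a ∈ C) :
    Nat.card M ≤ Nat.card C * Nat.card N := by
  classical
  have hex : ∀ n : N, ∃ b : P, (∃ a ∈ M, g a = n) → (b ∈ M ∧ g b = n) := by
    intro n
    by_cases h : ∃ a ∈ M, g a = n
    · obtain ⟨a, ha, hga⟩ := h
      exact ⟨a, fun _ => ⟨ha, hga⟩⟩
    · exact ⟨1, fun h' => absurd h' h⟩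
  choose r hr using hex
  have hrm : ∀ m : M, r ⟨g m, hg m m.2⟩ ∈ M ∧ g (r ⟨g m, hg m m.2⟩) = g m :=
    fun m => hr ⟨g m, hg m m.2⟩ ⟨m, m.2, rfl⟩
  let Φ : M → C × N := fun m =>
    (⟨(r ⟨g m, hg m m.2⟩)⁻¹ * m, hfib m m.2 _ (hrm m).1 (hrm m).2.symm⟩, ⟨g m, hg m m.2⟩)
  have hinj : Function.Injective Φ := by
    intro m m' h
    have h1 : g (m : P) = g m' := congrArg (fun t : C × N => ((t.2 : N) : P)) h
    have h2 : (r ⟨g m, hg m m.2⟩)⁻¹ * (m : P) = (r ⟨g m', hg m' m'.2⟩)⁻¹ * m' :=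
      congrArg (fun t : C × N => ((t.1 : C) : P)) h
    have h3 : r ⟨g m, hg m m.2⟩ = r ⟨g m', hg m' m'.2⟩ := by
      congr 1
      exact Subtype.ext h1
    rw [h3] at h2
    exact Subtype.ext (mul_left_cancel h2)
  calc Nat.card M ≤ Nat.card (C × N) := Nat.card_le_card_of_injective Φ hinj
    _ = Nat.card C * Nat.card N := Nat.card_prod _ _

/-- If `θ m = m * u` and `θ u = u`, with `u` of order prime to the order of `θ`, then `u = 1`. -/
theorem eq_one_of_aut_mul [Finite P] (θ : MulAut P) (m u : P) (hm : θ m = m * u) (hu : θ u = u)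
    (q : ℕ) (huq : u ^ q = 1) (hcop : (orderOf θ).Coprime q) : u = 1 := by
  have h1 : ∀ j : ℕ, (θ ^ j) u = u := by
    intro j
    induction j with
    | zero => simp
    | succ j ih => rw [pow_succ, MulAut.mul_apply, hu, ih]
  have h2 : ∀ j : ℕ, (θ ^ j) m = m * u ^ j := by
    intro j
    induction j with
    | zero => simp
    | succ j ih =>
      rw [pow_succ, MulAut.mul_apply, hm, map_mul, ih, h1, pow_succ, mul_assoc]
  have h3 := h2 (orderOf θ)
  rw [pow_orderOf_eq_one, MulAut.one_apply] at h3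
  have h4 : u ^ orderOf θ = 1 := by
    have : m * 1 = m * u ^ orderOf θ := by rw [mul_one]; exact h3
    exact (mul_left_cancel this).symm
  have h5 : orderOf u ∣ Nat.gcd (orderOf θ) q :=
    Nat.dvd_gcd (orderOf_dvd_of_pow_eq_one h4) (orderOf_dvd_of_pow_eq_one huq)
  rw [hcop.gcd_eq_one, Nat.dvd_one] at h5
  exact orderOf_eq_one_iff.mp h5

/-- An automorphism of order prime to `p` acting trivially on `M / N` and on `N` is trivial on
`M`. -/
theorem sec_fix [Finite P] (p : ℕ) [Fact p.Prime] (hP : IsPGroup p P) (N M : Subgroup P)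
    (hM : ∀ φ : MulAut P, ∀ m ∈ M, φ m ∈ M) (θ : MulAut P) (hθ : θ ∈ secKer N M hM)
    (hcop : (orderOf θ).Coprime p) (hfixN : ∀ n ∈ N, θ n = n) : ∀ m ∈ M, θ m = m := by
  intro m hm
  have hu := hθ m hm
  obtain ⟨k, hk⟩ := hP (m⁻¹ * θ m)
  have h1 : θ m = m * (m⁻¹ * θ m) := by group
  have h2 := eq_one_of_aut_mul θ m (m⁻¹ * θ m) h1 (hfixN _ hu) (p ^ k) hk (hcop.pow_right k)
  rw [h1, h2, mul_one]

/-- The image of `M` in `P / N` has order `p` when `|M| ≤ p |N|` and `M ⊄ N`. -/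
theorem sec_card [Finite P] (p : ℕ) [Fact p.Prime] (hP : IsPGroup p P) (N M : Subgroup P)
    [N.Normal] (hNM : N ≤ M) (hcard : Nat.card M ≤ p * Nat.card N) (hMN : ¬ M ≤ N) :
    Nat.card (M.map (QuotientGroup.mk' N)) = p := by
  have hp : p.Prime := Fact.out
  have h1 := Cfsg.Agent.Helper23.card_map_mk_mul_card N M hNM
  have hNpos : 0 < Nat.card N := Nat.card_pos
  have h2 : Nat.card (M.map (QuotientGroup.mk' N)) ≤ p := by
    have : Nat.card (M.map (QuotientGroup.mk' N)) * Nat.card N ≤ p * Nat.card N := by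
      rw [h1]; exact hcard
    exact Nat.le_of_mul_le_mul_right this hNpos
  have hQ : IsPGroup p (M.map (QuotientGroup.mk' N)) :=
    (hP.to_quotient N).to_subgroup _
  obtain ⟨k, hk⟩ := IsPGroup.iff_card.mp hQ
  have hk1 : k ≤ 1 := by
    rw [hk] at h2
    by_contra hlt
    have : p ^ 2 ≤ p ^ k := Nat.pow_le_pow_right hp.pos (by omega)
    have h3 : p < p ^ 2 := by
      have := hp.one_lt
      nlinarith
    omega
  have hk0 : k ≠ 0 := by
    rintro rfl
    rw [pow_zero] at hk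
    apply hMN
    intro m hm
    have h3 : (⟨QuotientGroup.mk' N m, mem_map_of_mem _ hm⟩ : M.map (QuotientGroup.mk' N)) = 1 :=
      (Nat.card_eq_one_iff_unique.mp hk).1.elim _ _
    have h4 := congrArg Subtype.val h3
    exact (QuotientGroup.eq_one_iff m).mp h4
  have : k = 1 := by omega
  rw [hk, this, pow_one]

/-- On a section of order at most `p`, every automorphism acts as a power map. -/
theorem sec_power_map [Finite P] (p : ℕ) [Fact p.Prime] (hP : IsPGroup p P) (N M : Subgroup P)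
    [N.Normal] (hNM : N ≤ M) (hcard : Nat.card M ≤ p * Nat.card N)
    (φ : MulAut P) (hφN : ∀ n ∈ N, φ n ∈ N) (hφM : ∀ m ∈ M, φ m ∈ M) :
    ∃ k : ℕ, ∀ m ∈ M, (QuotientGroup.mk' N) (φ m) = (QuotientGroup.mk' N m) ^ k := by
  by_cases hMN : M ≤ N
  · refine ⟨0, fun m hm => ?_⟩
    rw [pow_zero]
    exact (QuotientGroup.eq_one_iff _).mpr (hφN m (hMN hm))
  · obtain ⟨n₀, hn₀M, hn₀N⟩ := SetLike.not_le_iff_exists.mp hMN
    have hc := sec_card p hP N M hNM hcard hMN
    have hpow : ∀ m ∈ M, ∃ j : ℕ, QuotientGroup.mk' N m = (QuotientGroup.mk' N n₀) ^ j := by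
      intro m hm
      have h1 := mem_powers_of_prime_card (G := M.map (QuotientGroup.mk' N)) hc
        (g := ⟨QuotientGroup.mk' N n₀, mem_map_of_mem _ hn₀M⟩)
        (g' := ⟨QuotientGroup.mk' N m, mem_map_of_mem _ hm⟩)
        (by
          intro h
          apply hn₀N
          have h4 := congrArg Subtype.val h
          exact (QuotientGroup.eq_one_iff n₀).mp h4)
      obtain ⟨j, hj⟩ := h1
      refine ⟨j, ?_⟩
      have h5 := congrArg Subtype.val hj
      simpa using h5.symm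
    obtain ⟨k, hk⟩ := hpow (φ n₀) (hφM n₀ hn₀M)
    refine ⟨k, fun m hm => ?_⟩
    obtain ⟨j, hj⟩ := hpow m hm
    have hn' : (n₀ ^ j)⁻¹ * m ∈ N := by
      have h1 : QuotientGroup.mk' N (n₀ ^ j) = QuotientGroup.mk' N m := by rw [map_pow, hj]
      exact QuotientGroup.eq.mp h1
    have hm' : m = n₀ ^ j * ((n₀ ^ j)⁻¹ * m) := by group
    have h2 : QuotientGroup.mk' N (φ m) =
        (QuotientGroup.mk' N (φ n₀)) ^ j * QuotientGroup.mk' N (φ ((n₀ ^ j)⁻¹ * m)) := by
      conv_lhs => rw [hm']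
      rw [map_mul, map_mul, map_pow, map_pow]
    have h3 : QuotientGroup.mk' N (φ ((n₀ ^ j)⁻¹ * m)) = 1 :=
      (QuotientGroup.eq_one_iff _).mpr (hφN _ hn')
    rw [h2, hk, h3, mul_one, hj, ← pow_mul, ← pow_mul, mul_comm]

/-- Commutators of automorphisms act trivially on a section of order at most `p`. -/
theorem sec_comm_mem [Finite P] (p : ℕ) [Fact p.Prime] (hP : IsPGroup p P) (N M : Subgroup P)
    [N.Normal] (hNM : N ≤ M) (hcard : Nat.card M ≤ p * Nat.card N)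
    (hN : ∀ θ : MulAut P, ∀ n ∈ N, θ n ∈ N) (hM : ∀ θ : MulAut P, ∀ m ∈ M, θ m ∈ M)
    (φ ψ : MulAut P) : ⁅φ, ψ⁆ ∈ secKer N M hM := by
  obtain ⟨k, hk⟩ := sec_power_map p hP N M hNM hcard φ (hN φ) (hM φ)
  obtain ⟨l, hl⟩ := sec_power_map p hP N M hNM hcard ψ (hN ψ) (hM ψ)
  intro m hm
  have hm' : φ⁻¹ (ψ⁻¹ m) ∈ M := hM φ⁻¹ _ (hM ψ⁻¹ m hm)
  have h1 : ⁅φ, ψ⁆ m = φ (ψ (φ⁻¹ (ψ⁻¹ m))) := by
    rw [commutatorElement_def]
    rfl
  have h2 : m = ψ (φ (φ⁻¹ (ψ⁻¹ m))) := by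
    rw [MulAut.apply_inv_self, MulAut.apply_inv_self]
  have h3 : QuotientGroup.mk' N (φ (ψ (φ⁻¹ (ψ⁻¹ m)))) =
      QuotientGroup.mk' N (ψ (φ (φ⁻¹ (ψ⁻¹ m)))) := by
    rw [hk _ (hM ψ _ hm'), hl _ hm', hl _ (hM φ _ hm'), hk _ hm', ← pow_mul, ← pow_mul, mul_comm]
  rw [← h2] at h3
  apply QuotientGroup.eq.mp
  rw [h1]
  exact h3.symm

/-- `(p - 1)`-th powers of automorphisms act trivially on a section of order at most `p`. -/
theorem sec_pow_mem [Finite P] (p : ℕ) [Fact p.Prime] (hP : IsPGroup p P) (N M : Subgroup P)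
    [N.Normal] (hNM : N ≤ M) (hcard : Nat.card M ≤ p * Nat.card N)
    (hN : ∀ θ : MulAut P, ∀ n ∈ N, θ n ∈ N) (hM : ∀ θ : MulAut P, ∀ m ∈ M, θ m ∈ M)
    (φ : MulAut P) : φ ^ (p - 1) ∈ secKer N M hM := by
  have hp : p.Prime := Fact.out
  obtain ⟨k, hk⟩ := sec_power_map p hP N M hNM hcard φ (hN φ) (hM φ)
  have hiter : ∀ j : ℕ, ∀ m ∈ M,
      QuotientGroup.mk' N ((φ ^ j) m) = (QuotientGroup.mk' N m) ^ (k ^ j) := by
    intro j
    induction j with
    | zero => intro m _; simp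
    | succ j ih =>
      intro m hm
      rw [pow_succ, MulAut.mul_apply, ih _ (hM φ m hm), hk m hm, ← pow_mul, pow_succ, mul_comm]
  intro m hm
  apply QuotientGroup.eq.mp
  show QuotientGroup.mk' N m = QuotientGroup.mk' N ((φ ^ (p - 1)) m)
  rw [hiter (p - 1) m hm]
  by_cases hm1 : QuotientGroup.mk' N m = 1
  · rw [hm1, one_pow]
  · have hMN : ¬ M ≤ N := fun h => hm1 ((QuotientGroup.eq_one_iff m).mpr (h hm))
    have hc := sec_card p hP N M hNM hcard hMN
    have ho : orderOf (QuotientGroup.mk' N m) = p := by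
      have h1 : orderOf (⟨QuotientGroup.mk' N m, mem_map_of_mem _ hm⟩ :
          M.map (QuotientGroup.mk' N)) ∣ p := by
        rw [← hc]; exact orderOf_dvd_natCard _
      rw [Subgroup.orderOf_mk] at h1
      rcases (Nat.dvd_prime hp).mp h1 with h | h
      · exact absurd (orderOf_eq_one_iff.mp h) hm1
      · exact h
    have hkp : ¬ p ∣ k := by
      intro hdvd
      have h1 : QuotientGroup.mk' N (φ m) = 1 := by
        rw [hk m hm]
        obtain ⟨c, rfl⟩ := hdvd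
        rw [pow_mul, ← ho, pow_orderOf_eq_one, one_pow]
      have h2 : φ m ∈ N := (QuotientGroup.eq_one_iff _).mp h1
      have h3 := hN φ⁻¹ _ h2
      rw [MulAut.inv_apply_self] at h3
      exact hm1 ((QuotientGroup.eq_one_iff m).mpr h3)
    have hcop : Nat.Coprime k p := (Nat.Prime.coprime_iff_not_dvd hp).mpr hkp |>.symm
    have hfer : k ^ (p - 1) ≡ 1 [MOD p] := by
      have := Nat.ModEq.pow_totient hcop
      rwa [Nat.totient_prime hp] at this
    have h4 : (QuotientGroup.mk' N m) ^ (k ^ (p - 1)) = (QuotientGroup.mk' N m) ^ 1 := by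
      rw [pow_eq_pow_iff_modEq, ho]
      exact hfer
    rw [h4, pow_one]

/-- In a class-two situation, `(a b)^p = a^p b^p` when `b^p` commutes with `a` (`p` odd). -/
theorem class2_mul_pow (p : ℕ) [Fact p.Prime] (hp : p ≠ 2) (a b : P) (hca : Commute ⁅b, a⁆ a)
    (hcb : Commute ⁅b, a⁆ b) (hbp : Commute (b ^ p) a) : (a * b) ^ p = a ^ p * b ^ p := by
  have hp' : p.Prime := Fact.out
  rw [Cfsg.Agent.Helper24.mul_pow_of_commutator_commute a b hca hcb p]
  have h1 : ⁅b, a⁆ ^ p = 1 := by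
    rw [← Cfsg.Agent.Helper24.commutator_pow_left_of_commute a b hcb p]
    exact commutatorElement_eq_one_iff_commute.mpr hbp
  have h2 : p ∣ p.choose 2 := hp'.dvd_choose_self (by norm_num) (by
    have := hp'.two_le
    omega)
  obtain ⟨c, hc⟩ := h2
  rw [hc, pow_mul, h1, one_pow, mul_one]

/-- The elements of order dividing `p` of a subgroup of class at most two (`p` odd). -/
def omegaSub (p : ℕ) [Fact p.Prime] (hp : p ≠ 2) (H : Subgroup P)
    (hH : ∀ a ∈ H, ∀ b ∈ H, ∀ c ∈ H, Commute ⁅a, b⁆ c) : Subgroup P where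
  carrier := {h | h ∈ H ∧ h ^ p = 1}
  one_mem' := ⟨H.one_mem, one_pow p⟩
  mul_mem' := by
    rintro a b ⟨ha, hap⟩ ⟨hb, hbp⟩
    refine ⟨H.mul_mem ha hb, ?_⟩
    rw [class2_mul_pow p hp a b (hH b hb a ha a ha) (hH b hb a ha b hb)
      (by rw [hbp]; exact Commute.one_left a), hap, hbp, one_mul]
  inv_mem' := by
    rintro a ⟨ha, hap⟩
    exact ⟨H.inv_mem ha, by rw [inv_pow, hap, inv_one]⟩

theorem mem_omegaSub {p : ℕ} [Fact p.Prime] {hp : p ≠ 2} {H : Subgroup P}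
    {hH : ∀ a ∈ H, ∀ b ∈ H, ∀ c ∈ H, Commute ⁅a, b⁆ c} {h : P} :
    h ∈ omegaSub p hp H hH ↔ h ∈ H ∧ h ^ p = 1 := Iff.rfl

/-- An automorphism of order prime to `p` fixing the elements of order dividing `p` of a
class-two subgroup `H` (`p` odd) fixes `H` pointwise. -/
theorem fix_of_fix_omega [Finite P] (p : ℕ) [Fact p.Prime] (hp : p ≠ 2) (hP : IsPGroup p P)
    (H : Subgroup P) (hH : ∀ a ∈ H, ∀ b ∈ H, ∀ c ∈ H, Commute ⁅a, b⁆ c) (θ : MulAut P)
    (hθH : ∀ h ∈ H, θ h ∈ H) (hcop : (orderOf θ).Coprime p)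
    (hfix : ∀ h ∈ H, h ^ p = 1 → θ h = h) : ∀ h ∈ H, θ h = h := by
  have key : ∀ k : ℕ, ∀ h ∈ H, h ^ p ^ k = 1 → θ h = h := by
    intro k
    induction k with
    | zero =>
      intro h _ hk
      rw [pow_zero, pow_one] at hk
      rw [hk, map_one]
    | succ k ih =>
      intro h hh hk
      have h1 : θ (h ^ p) = h ^ p :=
        ih (h ^ p) (H.pow_mem hh p) (by rw [← pow_mul, ← pow_succ']; exact hk)
      have hθh := hθH h hh
      have hu : h⁻¹ * θ h ∈ H := H.mul_mem (H.inv_mem hh) hθh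
      have hup : (h⁻¹ * θ h) ^ p = 1 := by
        rw [class2_mul_pow p hp h⁻¹ (θ h) (hH _ hθh _ (H.inv_mem hh) _ (H.inv_mem hh))
          (hH _ hθh _ (H.inv_mem hh) _ hθh)
          (by rw [← map_pow, h1]; exact (Commute.refl h).pow_left p |>.inv_right),
          ← map_pow, h1, inv_pow, inv_mul_cancel]
      have h2 : θ h = h * (h⁻¹ * θ h) := by group
      have h3 := eq_one_of_aut_mul θ h (h⁻¹ * θ h) h2 (hfix _ hu hup) p hup hcop
      rw [h2, h3, mul_one]
  intro h hh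
  obtain ⟨k, hk⟩ := hP h
  exact key k h hh hk

/-- **Bender–Glauberman 5.3 (a), (b), type-level core.** -/
theorem narrow_aut [Finite P] (p : ℕ) [Fact p.Prime] (hp : p ≠ 2) (hP : IsPGroup p P)
    (x : P) (E : Subgroup P) (hxE : x ∈ E) (hE2 : Nat.card E = p ^ 2) (hEp : ∀ e ∈ E, e ^ p = 1)
    (hmax : ∀ y : P, y ^ p = 1 → y * x = x * y → y ∈ E) (hr : ¬ Cfsg.PRankLE p 2 P) :
    ∃ K : Subgroup (MulAut P), (∀ φ ψ : MulAut P, ⁅φ, ψ⁆ ∈ K) ∧
      (∀ φ : MulAut P, φ ^ (p - 1) ∈ K) ∧ ∀ θ ∈ K, (orderOf θ).Coprime p → θ = 1 := by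
  have hp' : p.Prime := Fact.out
  -- `E` is elementary abelian and maximal
  have hEel : Cfsg.IsElementaryAbelian p E :=
    ⟨IsPGroup.isMulCommutative_of_card_eq_prime_sq hE2, hEp⟩
  have hEmax : ∀ B : Subgroup P, Cfsg.IsElementaryAbelian p B → E ≤ B → B = E := by
    rintro B ⟨hBc, hBp⟩ hEB
    refine le_antisymm (fun b hb => hmax b (hBp b hb) ?_) hEB
    exact congrArg Subtype.val (hBc.is_comm.comm (⟨b, hb⟩ : B) ⟨x, hEB hxE⟩)
  obtain ⟨hET, -, ⟨hWel, hWcard⟩, hTchar, hTidx⟩ :=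
    Cfsg.Agent.S1453.result p hp hP hr E hEel hE2 hEmax
  obtain ⟨W, hWdef⟩ : ∃ W : Subgroup P,
      W = Subgroup.closure {y : P | y ∈ Subgroup.upperCentralSeries P 2 ∧ y ^ p = 1} := ⟨_, rfl⟩
  rw [← hWdef] at hET hWel hWcard hTchar hTidx
  obtain ⟨T, hTdef⟩ : ∃ T : Subgroup P, T = Subgroup.centralizer (W : Set P) := ⟨_, rfl⟩
  rw [← hTdef] at hET hTchar hTidx
  -- `x ∉ T`
  have hxT : x ∉ T := by
    intro hxT
    rw [hTdef] at hxT
    have hWE : W ≤ E := by
      rw [hWdef, Subgroup.closure_le]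
      intro y hy
      refine hmax y hy.2 ?_
      exact Subgroup.mem_centralizer_iff.mp hxT y (by rw [hWdef]; exact Subgroup.subset_closure hy)
    have hWeqE : W = E := Subgroup.eq_of_le_of_card_ge hWE (by rw [hWcard, hE2])
    apply hET
    rw [← hWeqE, hTdef]
    intro w hw
    rw [Subgroup.mem_centralizer_iff]
    intro w' hw'
    exact congrArg Subtype.val (hWel.1.is_comm.comm (⟨w', hw'⟩ : W) ⟨w, hw⟩)
  have hTinv : ∀ φ : MulAut P, ∀ h ∈ T, φ h ∈ T := fun φ h hh => char_inv hTchar φ hh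
  haveI hTn : T.Normal := normal_of_inv T hTinv
  -- the critical subgroup
  obtain ⟨H, hHchar, hH1, hH2, hH3⟩ := Cfsg.Agent.S0093.result hP
  have hHinv : ∀ φ : MulAut P, ∀ h ∈ H, φ h ∈ H := fun φ h hh => char_inv hHchar φ hh
  have hHcl : ∀ a ∈ H, ∀ b ∈ H, ∀ c ∈ H, Commute ⁅a, b⁆ c := by
    intro a ha b _ c hc
    have h1 : ⁅a, b⁆ ∈ H ⊓ Subgroup.centralizer (H : Set P) :=
      hH2 (Subgroup.commutator_mem_commutator ha (Subgroup.mem_top b))
    exact (Subgroup.mem_centralizer_iff.mp h1.2 c hc).symm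
  obtain ⟨D, hDdef⟩ : ∃ D : Subgroup P, D = omegaSub p hp H hHcl := ⟨_, rfl⟩
  have hDmem : ∀ h : P, h ∈ D ↔ h ∈ H ∧ h ^ p = 1 := fun h => by rw [hDdef]; exact Iff.rfl
  have hDinv : ∀ φ : MulAut P, ∀ h ∈ D, φ h ∈ D := by
    intro φ h hh
    rw [hDmem] at hh ⊢
    exact ⟨hHinv φ h hh.1, by rw [← map_pow, hh.2, map_one]⟩
  haveI hDn : D.Normal := normal_of_inv D hDinv
  -- the chain
  obtain ⟨Hc, hHcdef⟩ : ∃ Hc : ℕ → Subgroup P,
      Hc = fun i => D ⊓ T ⊓ Subgroup.upperCentralSeries P i := ⟨_, rfl⟩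
  have hHcmem : ∀ i (h : P), h ∈ Hc i ↔ (h ∈ D ∧ h ∈ T) ∧ h ∈ Subgroup.upperCentralSeries P i := by
    intro i h
    rw [hHcdef]
    exact Iff.rfl
  have hHcinv : ∀ i, ∀ φ : MulAut P, ∀ h ∈ Hc i, φ h ∈ Hc i := by
    intro i φ h hh
    rw [hHcmem] at hh ⊢
    exact ⟨⟨hDinv φ h hh.1.1, hTinv φ h hh.1.2⟩, char_inv inferInstance φ hh.2⟩
  have hHcn : ∀ i, (Hc i).Normal := fun i => normal_of_inv _ (hHcinv i)
  have hHcmono : ∀ i, Hc i ≤ Hc (i + 1) := by
    intro i h hh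
    rw [hHcmem] at hh ⊢
    exact ⟨hh.1, Subgroup.upperCentralSeries_mono P (Nat.le_succ i) hh.2⟩
  have hDTinv : ∀ φ : MulAut P, ∀ h ∈ D ⊓ T, φ h ∈ D ⊓ T :=
    fun φ h hh => ⟨hDinv φ h hh.1, hTinv φ h hh.2⟩
  -- the centralizer of `x` in `D ⊓ T`
  have hC₀ : Nat.card ↥(D ⊓ T ⊓ Subgroup.centralizer ({x} : Set P)) ≤ p := by
    have h1 : D ⊓ T ⊓ Subgroup.centralizer ({x} : Set P) ≤ E ⊓ T := by
      rintro c ⟨⟨hcD, hcT⟩, hcx⟩
      refine ⟨hmax c ((hDmem c).mp hcD).2 ?_, hcT⟩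
      exact (Subgroup.mem_centralizer_iff.mp hcx x (Set.mem_singleton x)).symm
    have h2 : Nat.card ↥(E ⊓ T) ≤ p := by
      have h3 : Nat.card ↥(E ⊓ T) ∣ p ^ 2 := by
        rw [← hE2]; exact Subgroup.card_dvd_of_le inf_le_left
      obtain ⟨k, hk2, hk⟩ := (Nat.dvd_prime_pow hp').mp h3
      have hk1 : k ≠ 2 := by
        rintro rfl
        have h4 : E ⊓ T = E := Subgroup.eq_of_le_of_card_ge inf_le_left (by rw [hk, hE2])
        have h5 : x ∈ E ⊓ T := by rw [h4]; exact hxE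
        exact hxT h5.2
      rw [hk]
      calc p ^ k ≤ p ^ 1 := Nat.pow_le_pow_right hp'.pos (by omega)
        _ = p := pow_one p
    exact (Subgroup.card_le_of_le h1).trans h2
  have hstep : ∀ i, Nat.card ↥(Hc (i + 1)) ≤ p * Nat.card ↥(Hc i) := by
    intro i
    have h1 := card_le_of_fiber (Hc (i + 1)) (Hc i) (D ⊓ T ⊓ Subgroup.centralizer ({x} : Set P))
      (fun h => ⁅h, x⁆)
      (by
        intro h hh
        rw [hHcmem] at hh ⊢
        refine ⟨?_, Subgroup.mem_upperCentralSeries_succ_iff.mp hh.2 x⟩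
        have h2 : h ∈ D ⊓ T := hh.1
        have h3 : x * h⁻¹ * x⁻¹ ∈ D ⊓ T :=
          (inferInstance : (D ⊓ T).Normal).conj_mem _ ((D ⊓ T).inv_mem h2) x
        have h4 : ⁅h, x⁆ = h * (x * h⁻¹ * x⁻¹) := by rw [commutatorElement_def]; group
        rw [h4]
        exact (D ⊓ T).mul_mem h2 h3)
      (by
        intro a ha b hb hab
        rw [hHcmem] at ha hb
        have ha2 : a ∈ D ⊓ T := ha.1
        have hb2 : b ∈ D ⊓ T := hb.1
        refine ⟨(D ⊓ T).mul_mem ((D ⊓ T).inv_mem hb2) ha2, ?_⟩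
        show b⁻¹ * a ∈ Subgroup.centralizer ({x} : Set P)
        rw [Subgroup.mem_centralizer_iff]
        intro y hy
        rw [Set.mem_singleton_iff] at hy
        subst hy
        have h5 : a * y * a⁻¹ = b * y * b⁻¹ := by
          have h6 : a * y * a⁻¹ * y⁻¹ = b * y * b⁻¹ * y⁻¹ := hab
          exact mul_right_cancel h6
        calc y * (b⁻¹ * a) = b⁻¹ * (b * y * b⁻¹) * a := by group
          _ = b⁻¹ * (a * y * a⁻¹) * a := by rw [h5]
          _ = b⁻¹ * a * y := by group)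
    calc Nat.card ↥(Hc (i + 1))
        ≤ Nat.card ↥(D ⊓ T ⊓ Subgroup.centralizer ({x} : Set P)) * Nat.card ↥(Hc i) := h1
      _ ≤ p * Nat.card ↥(Hc i) := Nat.mul_le_mul_right _ hC₀
  have htop : Nat.card ↥D ≤ p * Nat.card ↥(D ⊓ T) := by
    have h1 : (D ⊓ T).relIndex D ∣ p := by
      rw [Subgroup.inf_relIndex_left, ← hTidx]
      exact Subgroup.relIndex_dvd_index_of_normal T D
    have h2 : Nat.card ↥(D ⊓ T) * (D ⊓ T).relIndex D = Nat.card ↥D := by
      have := Subgroup.relIndex_mul_relIndex (H := (⊥ : Subgroup P)) (K := D ⊓ T) (L := D) bot_le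
        inf_le_left
      rwa [Subgroup.relIndex_bot_left, Subgroup.relIndex_bot_left] at this
    rw [← h2, mul_comm]
    exact Nat.mul_le_mul_right _ (Nat.le_of_dvd hp'.pos h1)
  -- the subgroup `K`
  refine ⟨(⨅ i, secKer (Hc i) (Hc (i + 1)) (hHcinv (i + 1))) ⊓ secKer (D ⊓ T) D hDinv, ?_, ?_, ?_⟩
  · intro φ ψ
    refine Subgroup.mem_inf.mpr ⟨Subgroup.mem_iInf.mpr (fun i => ?_), ?_⟩
    · haveI := hHcn i
      exact sec_comm_mem p hP (Hc i) (Hc (i + 1)) (hHcmono i) (hstep i) (hHcinv i)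
        (hHcinv (i + 1)) φ ψ
    · exact sec_comm_mem p hP (D ⊓ T) D inf_le_left htop hDTinv hDinv φ ψ
  · intro φ
    refine Subgroup.mem_inf.mpr ⟨Subgroup.mem_iInf.mpr (fun i => ?_), ?_⟩
    · haveI := hHcn i
      exact sec_pow_mem p hP (Hc i) (Hc (i + 1)) (hHcmono i) (hstep i) (hHcinv i)
        (hHcinv (i + 1)) φ
    · exact sec_pow_mem p hP (D ⊓ T) D inf_le_left htop hDTinv hDinv φ
  · intro θ hθ hcop
    obtain ⟨hθ1, hθ2⟩ := Subgroup.mem_inf.mp hθ
    have hθi := Subgroup.mem_iInf.mp hθ1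
    have hfix : ∀ i, ∀ h ∈ Hc i, θ h = h := by
      intro i
      induction i with
      | zero =>
        intro h hh
        rw [hHcmem, Subgroup.upperCentralSeries_zero, Subgroup.mem_bot] at hh
        rw [hh.2, map_one]
      | succ i ih => exact sec_fix p hP (Hc i) (Hc (i + 1)) (hHcinv (i + 1)) θ (hθi i) hcop ih
    haveI : Group.IsNilpotent P := hP.isNilpotent
    obtain ⟨n, hn⟩ := Group.IsNilpotent.nilpotent' (G := P)
    have hfixDT : ∀ h ∈ D ⊓ T, θ h = h := by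
      intro h hh
      apply hfix n h
      rw [hHcmem, hn]
      exact ⟨hh, Subgroup.mem_top h⟩
    have hfixD : ∀ h ∈ D, θ h = h := sec_fix p hP (D ⊓ T) D hDinv θ hθ2 hcop hfixDT
    have hfixH : ∀ h ∈ H, θ h = h :=
      fix_of_fix_omega p hp hP H hHcl θ (hHinv θ) hcop
        (fun h hh hhp => hfixD h ((hDmem h).mpr ⟨hh, hhp⟩))
    exact Cfsg.Agent.S0121.result hP H hHchar hH1 hH2 hH3 θ hcop hfixH

/-- The data used by `narrow_aut`, extracted from the definition of a narrow group of rank at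
least three. -/
theorem narrow_data [Finite P] (p : ℕ) [Fact p.Prime] (hP : IsPGroup p P)
    (hn : Cfsg.IsNarrow p P) (hr : ¬ Cfsg.PRankLE p 2 P) :
    ∃ (x : P) (E : Subgroup P), x ∈ E ∧ Nat.card E = p ^ 2 ∧ (∀ e ∈ E, e ^ p = 1) ∧
      ∀ y : P, y ^ p = 1 → y * x = x * y → y ∈ E := by
  classical
  have hp : p.Prime := Fact.out
  rcases hn with h | ⟨R₀, R₁, hR₀, hR₁c, hdisj, hcomm, hsup⟩
  · exact absurd h hr
  obtain ⟨x, hxR₀, hx1⟩ : ∃ x ∈ R₀, x ≠ 1 := by
    by_contra hcon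
    push Not at hcon
    have : R₀ = ⊥ := (Subgroup.eq_bot_iff_forall R₀).mpr hcon
    rw [this, Subgroup.card_bot] at hR₀
    exact hp.one_lt.ne hR₀
  have hR₀pow : ∀ r ∈ R₀, r ∈ Subgroup.zpowers x := by
    intro r hr'
    have h1 := mem_zpowers_of_prime_card (G := ↥R₀) hR₀ (g := ⟨x, hxR₀⟩) (g' := ⟨r, hr'⟩)
      (by intro h; exact hx1 (congrArg Subtype.val h))
    obtain ⟨k, hk⟩ := Subgroup.mem_zpowers_iff.mp h1
    exact Subgroup.mem_zpowers_iff.mpr ⟨k, by have := congrArg Subtype.val hk; simpa using this⟩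
  have hR₀p : ∀ r ∈ R₀, r ^ p = 1 := by
    intro r hr'
    have h1 := orderOf_dvd_natCard (⟨r, hr'⟩ : R₀)
    rw [hR₀, Subgroup.orderOf_mk] at h1
    exact orderOf_dvd_iff_pow_eq_one.mp h1
  obtain ⟨C, hCdef⟩ : ∃ C : Subgroup P, C = Subgroup.centralizer (R₀ : Set P) := ⟨_, rfl⟩
  rw [← hCdef] at hsup
  have hR₀C : R₀ ≤ C := by rw [← hsup]; exact le_sup_left
  have hR₁C : R₁ ≤ C := by rw [← hsup]; exact le_sup_right
  have hCx : ∀ y : P, y * x = x * y → y ∈ C := by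
    intro y hy
    rw [hCdef, Subgroup.mem_centralizer_iff]
    intro r hr'
    obtain ⟨k, rfl⟩ := Subgroup.mem_zpowers_iff.mp (hR₀pow r hr')
    exact ((Commute.zpow_right (show Commute y x from hy) k).eq).symm
  have hR₁comm : ∀ a ∈ R₁, ∀ b ∈ R₁, a * b = b * a := by
    intro a ha b hb
    haveI := hR₁c
    exact congrArg Subtype.val
      ((IsCyclic.isMulCommutative (α := ↥R₁)).is_comm.comm ⟨a, ha⟩ ⟨b, hb⟩)
  have hCcomm : ∀ a ∈ C, ∀ b ∈ C, a * b = b * a := by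
    have h1 : C ≤ Subgroup.centralizer (R₁ : Set P) := by
      rw [← hsup, sup_le_iff]
      refine ⟨?_, ?_⟩
      · intro a ha
        rw [Subgroup.mem_centralizer_iff]
        intro b hb
        exact (hcomm a ha b hb).symm
      · intro a ha
        rw [Subgroup.mem_centralizer_iff]
        intro b hb
        exact hR₁comm b hb a ha
    have h2 : R₀ ⊔ R₁ ≤ Subgroup.centralizer (C : Set P) := by
      rw [sup_le_iff]
      refine ⟨?_, ?_⟩
      · rw [Subgroup.le_centralizer_iff]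
        exact hCdef.le
      · rw [Subgroup.le_centralizer_iff]
        exact h1
    rw [hsup] at h2
    intro a ha b hb
    exact Subgroup.mem_centralizer_iff.mp (h2 hb) a ha
  let E : Subgroup P :=
    { carrier := {y | y ∈ C ∧ y ^ p = 1}
      one_mem' := ⟨C.one_mem, one_pow p⟩
      mul_mem' := by
        rintro a b ⟨ha, hap⟩ ⟨hb, hbp⟩
        refine ⟨C.mul_mem ha hb, ?_⟩
        rw [(show Commute a b from hCcomm a ha b hb).mul_pow, hap, hbp, one_mul]
      inv_mem' := by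
        rintro a ⟨ha, hap⟩
        exact ⟨C.inv_mem ha, by rw [inv_pow, hap, inv_one]⟩ }
  have hEmem : ∀ y : P, y ∈ E ↔ y ∈ C ∧ y ^ p = 1 := fun y => Iff.rfl
  have hxE : x ∈ E := ⟨hR₀C hxR₀, hR₀p x hxR₀⟩
  refine ⟨x, E, hxE, ?_, fun e he => he.2, fun y hy hyx => ⟨hCx y hyx, hy⟩⟩
  -- the order of `E`
  have hsurj : ∀ y ∈ E, ∃ a : ↥R₀, ∃ b : ↥R₁, b ^ p = 1 ∧ (a : P) * (b : P) = y := by
    intro y hy
    have hyC : y ∈ R₀ ⊔ R₁ := by rw [hsup]; exact hy.1
    have hrange := MonoidHom.noncommCoprod_range R₀.subtype R₁.subtype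
      (fun m n => (show Commute (R₀.subtype m) (R₁.subtype n) from hcomm m m.2 n n.2))
    rw [Subgroup.range_subtype, Subgroup.range_subtype] at hrange
    rw [← hrange] at hyC
    obtain ⟨⟨a, b⟩, hab⟩ := hyC
    have hab' : (a : P) * (b : P) = y := hab
    refine ⟨a, b, ?_, hab'⟩
    have h1 := hy.2
    have h2 : ((a : P) * (b : P)) ^ p = (b : P) ^ p := by
      rw [(show Commute (a : P) (b : P) from hcomm a a.2 b b.2).mul_pow, hR₀p _ a.2, one_mul]
    rw [← hab', h2] at h1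
    exact Subtype.ext (by simpa using h1)
  have hL : Nat.card {b : ↥R₁ // b ^ p = 1} ≤ p := by
    haveI := hR₁c
    haveI := Fintype.ofFinite ↥R₁
    have h1 := IsCyclic.card_pow_eq_one_le (α := ↥R₁) hp.pos
    rw [Nat.card_eq_fintype_card, Fintype.card_subtype]
    exact h1
  have hle : Nat.card E ≤ p * p := by
    let f : ↥R₀ × {b : ↥R₁ // b ^ p = 1} → ↥E := fun ab =>
      ⟨(ab.1 : P) * ((ab.2.1 : ↥R₁) : P), ⟨C.mul_mem (hR₀C ab.1.2) (hR₁C ab.2.1.2), by
        rw [(show Commute (ab.1 : P) ((ab.2.1 : ↥R₁) : P) from hcomm _ ab.1.2 _ ab.2.1.2).mul_pow,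
          hR₀p _ ab.1.2, one_mul]
        have := congrArg Subtype.val ab.2.2
        simpa using this⟩⟩
    have hf : Function.Surjective f := by
      rintro ⟨y, hy⟩
      obtain ⟨a, b, hbp, hab⟩ := hsurj y hy
      exact ⟨(a, ⟨b, hbp⟩), Subtype.ext hab⟩
    calc Nat.card E ≤ Nat.card (↥R₀ × {b : ↥R₁ // b ^ p = 1}) :=
          Nat.card_le_card_of_surjective f hf
      _ = Nat.card R₀ * Nat.card {b : ↥R₁ // b ^ p = 1} := Nat.card_prod _ _
      _ ≤ p * p := by rw [hR₀]; exact Nat.mul_le_mul_left _ hL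
  -- `R₁ ≠ ⊥`
  have hR₁ne : R₁ ≠ ⊥ := by
    intro hbot
    rw [hbot, sup_bot_eq] at hsup
    haveI : Nontrivial P := ⟨⟨x, 1, hx1⟩⟩
    have h1 : Subgroup.center P ≤ R₀ := by
      rw [hsup, hCdef]
      exact Subgroup.center_le_centralizer _
    have h2 : Nat.card (Subgroup.center P) ∣ p := by
      rw [← hR₀]; exact Subgroup.card_dvd_of_le h1
    have h3 : Nat.card (Subgroup.center P) ≠ 1 := by
      intro h
      exact (ne_of_gt hP.bot_lt_center) (Subgroup.card_eq_one.mp h)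
    have h4 : Nat.card (Subgroup.center P) = p := by
      rcases (Nat.dvd_prime hp).mp h2 with h | h
      · exact absurd h h3
      · exact h
    have h5 : Subgroup.center P = R₀ := Subgroup.eq_of_le_of_card_ge h1 (by rw [h4, hR₀])
    have h6 : C = ⊤ := by
      rw [hCdef, Subgroup.centralizer_eq_top_iff_subset, ← h5]
    have h7 : Nat.card P = p := by
      rw [← hR₀, hsup, h6, Subgroup.card_top]
    apply hr
    intro A _ _
    calc Nat.card A ≤ Nat.card P := Subgroup.card_le_card_group A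
      _ = p := h7
      _ ≤ p ^ 2 := by
        have := hp.one_lt
        nlinarith
  obtain ⟨z, hz⟩ : ∃ z : ↥R₁, orderOf z = p := by
    have hR₁p : IsPGroup p R₁ := hP.to_subgroup R₁
    obtain ⟨j, hj⟩ := IsPGroup.iff_card.mp hR₁p
    have hj0 : j ≠ 0 := by
      rintro rfl
      rw [pow_zero] at hj
      exact hR₁ne (Subgroup.card_eq_one.mp hj)
    exact exists_prime_orderOf_dvd_card' p (by rw [hj]; exact dvd_pow_self p hj0)
  have hzE : (z : P) ∈ E := by
    refine ⟨hR₁C z.2, ?_⟩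
    rw [← hz, ← Subgroup.orderOf_coe]
    exact pow_orderOf_eq_one _
  have hzR₀ : (z : P) ∉ R₀ := by
    intro h
    have h1 : (z : P) ∈ R₀ ⊓ R₁ := ⟨h, z.2⟩
    rw [hdisj, Subgroup.mem_bot] at h1
    have h2 : z = 1 := Subtype.ext h1
    rw [h2, orderOf_one] at hz
    exact hp.one_lt.ne hz
  have hR₀E : R₀ < E := by
    refine lt_of_le_of_ne (fun r hr' => ⟨hR₀C hr', hR₀p r hr'⟩) ?_
    intro h
    rw [h] at hzR₀
    exact hzR₀ hzE
  have hlt : p < Nat.card E := by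
    rw [← hR₀]
    exact Cfsg.Agent.Helper24.card_lt_card_of_lt hR₀E
  obtain ⟨k, hk⟩ := IsPGroup.iff_card.mp (hP.to_subgroup E)
  rw [hk] at hlt hle ⊢
  have hk2 : k ≤ 2 := by
    rw [← pow_two] at hle
    exact (Nat.pow_le_pow_iff_right hp.one_lt).mp hle
  have hk1 : 1 < k := by
    by_contra hcon
    have : p ^ k ≤ p ^ 1 := Nat.pow_le_pow_right hp.pos (by omega)
    rw [pow_one] at this
    omega
  have : k = 2 := by omega
  rw [this]

end TypeLevel

section Internal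

variable {G : Type*} [Group G] [Finite G]

omit [Finite G] in
/-- From the subgroup `K` of `narrow_aut` to the internal statement. -/
theorem narrow_core_aut (p : ℕ) [Fact p.Prime] (R A : Subgroup G)
    (hA : A ≤ normalizer (R : Set G)) (K : Subgroup (MulAut ↥R))
    (hK1 : ∀ φ ψ : MulAut ↥R, ⁅φ, ψ⁆ ∈ K) (hK2 : ∀ φ : MulAut ↥R, φ ^ (p - 1) ∈ K)
    (hK3 : ∀ θ ∈ K, (orderOf θ).Coprime p → θ = 1) :
    (∀ X : Subgroup G, X ≤ ⁅A, A⁆ → (Nat.card X).Coprime p → X ≤ centralizer (R : Set G)) ∧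
      (∀ a ∈ A, (orderOf a).Coprime p → a ^ (p - 1) ∈ centralizer (R : Set G)) := by
  have hcomm : (commutator ↥A).map (Cfsg.Agent.Helper23.conjActHom R A hA) ≤ K := by
    rw [commutator_def, Subgroup.map_commutator]
    exact Subgroup.commutator_le.mpr (fun a _ b _ => hK1 a b)
  refine ⟨?_, ?_⟩
  · intro X hX hcop g hg
    have hgA := hX hg
    rw [← Subgroup.map_subtype_commutator] at hgA
    obtain ⟨g', hg', rfl⟩ := hgA
    have h1 : Cfsg.Agent.Helper23.conjActHom R A hA g' ∈ K :=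
      hcomm (Subgroup.mem_map_of_mem _ hg')
    have h2 : (orderOf (Cfsg.Agent.Helper23.conjActHom R A hA g')).Coprime p := by
      have h3 : orderOf (Cfsg.Agent.Helper23.conjActHom R A hA g') ∣ orderOf g' :=
        orderOf_map_dvd _ g'
      have h4 : orderOf g' ∣ Nat.card X := by
        have := orderOf_dvd_natCard (⟨A.subtype g', hg⟩ : X)
        rwa [Subgroup.orderOf_mk, Subgroup.coe_subtype, Subgroup.orderOf_coe] at this
      exact Nat.Coprime.coprime_dvd_left (h3.trans h4) hcop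
    exact Cfsg.Agent.Helper23.mem_centralizer_of_conjActHom_eq_one R A hA g' (hK3 _ h1 h2)
  · intro a ha hcop
    have h1 : Cfsg.Agent.Helper23.conjActHom R A hA ((⟨a, ha⟩ : A) ^ (p - 1)) ∈ K := by
      rw [map_pow]; exact hK2 _
    have h2 : (orderOf (Cfsg.Agent.Helper23.conjActHom R A hA ((⟨a, ha⟩ : A) ^ (p - 1)))).Coprime
        p := by
      have h3 : orderOf (Cfsg.Agent.Helper23.conjActHom R A hA ((⟨a, ha⟩ : A) ^ (p - 1))) ∣
          orderOf ((⟨a, ha⟩ : A) ^ (p - 1)) := orderOf_map_dvd _ _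
      have h4 : orderOf ((⟨a, ha⟩ : A) ^ (p - 1)) ∣ orderOf (⟨a, ha⟩ : A) := orderOf_pow_dvd _
      have h5 : orderOf (⟨a, ha⟩ : A) = orderOf a := Subgroup.orderOf_mk a ha
      rw [h5] at h4
      exact Nat.Coprime.coprime_dvd_left (h3.trans h4) hcop
    have h6 := Cfsg.Agent.Helper23.mem_centralizer_of_conjActHom_eq_one R A hA _ (hK3 _ h1 h2)
    simpa using h6

/-- **Bender–Glauberman 5.3 (a), (b)**, internal form with explicit narrowness data: `x ∈ E ≤ R`
with `E` of order `p ^ 2` and exponent `p` containing every element of order dividing `p` of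
`C_R(x)`, and `R` of rank at least three.  No faithfulness is assumed. -/
theorem narrow_core_data (p : ℕ) [Fact p.Prime] (hp : p ≠ 2) (R A : Subgroup G)
    (hR : IsPGroup p R) (x : G) (E : Subgroup G) (hER : E ≤ R) (hxE : x ∈ E)
    (hE2 : Nat.card E = p ^ 2) (hEp : ∀ e ∈ E, e ^ p = 1)
    (hmax : ∀ y ∈ R, y ^ p = 1 → y * x = x * y → y ∈ E)
    (hr : ¬ Cfsg.PRankLE p 2 ↥R) (hA : A ≤ normalizer (R : Set G)) :
    (∀ X : Subgroup G, X ≤ ⁅A, A⁆ → (Nat.card X).Coprime p → X ≤ centralizer (R : Set G)) ∧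
      (∀ a ∈ A, (orderOf a).Coprime p → a ^ (p - 1) ∈ centralizer (R : Set G)) := by
  obtain ⟨K, hK1, hK2, hK3⟩ := narrow_aut (P := ↥R) p hp hR ⟨x, hER hxE⟩ (E.subgroupOf R)
    (Subgroup.mem_subgroupOf.mpr hxE)
    (by rw [Cfsg.Agent.Helper23.natCard_subgroupOf_eq hER]; exact hE2)
    (fun e he => Subtype.ext (by simpa using hEp e (Subgroup.mem_subgroupOf.mp he)))
    (fun y hy hyx => Subgroup.mem_subgroupOf.mpr (hmax y y.2
      (by simpa using congrArg Subtype.val hy) (by simpa using congrArg Subtype.val hyx)))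
    hr
  exact narrow_core_aut p R A hA K hK1 hK2 hK3

/-- **Bender–Glauberman 5.3 (a), (b)**: `R` a narrow `p`-subgroup of rank at least three (`p`
odd), `A` any subgroup normalizing `R`.  Then every `p'`-subgroup of `[A, A]` centralizes `R`,
and the `(p - 1)`-th power of every `p'`-element of `A` centralizes `R`. -/
theorem narrow_core (p : ℕ) [Fact p.Prime] (hp : p ≠ 2) (R A : Subgroup G)
    (hR : IsPGroup p R) (hRn : Cfsg.IsNarrow p ↥R) (hr : ¬ Cfsg.PRankLE p 2 ↥R)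
    (hA : A ≤ normalizer (R : Set G)) :
    (∀ X : Subgroup G, X ≤ ⁅A, A⁆ → (Nat.card X).Coprime p → X ≤ centralizer (R : Set G)) ∧
      (∀ a ∈ A, (orderOf a).Coprime p → a ^ (p - 1) ∈ centralizer (R : Set G)) := by
  obtain ⟨x, E, hxE, hE2, hEp, hmax⟩ := narrow_data (P := ↥R) p hR hRn hr
  obtain ⟨K, hK1, hK2, hK3⟩ := narrow_aut (P := ↥R) p hp hR x E hxE hE2 hEp hmax hr
  exact narrow_core_aut p R A hA K hK1 hK2 hK3

end Internal

end Cfsg.Agent.Helper62.Narrow
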